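import Mathlib
import Cfsg.Agent.MacW.SR

/-! `HSE/*` are copies of `HSD/*` for the weaker configuration `Cfq` (`K ⊓ S₀ = D` in place of `K ⊓ S = D`), with
the order of a Sylow subgroup as the conclusion.  Definitions for involution centralizers with a component of dihedral type `D₈`
(Harris–Solomon).  Notation used throughout `HSD/*`:
`D = ⟨a, b⟩ ≅ D₈`, `z = (ab)²`, `V₁ = ⟨z, a⟩`, `V₂ = ⟨z, b⟩`, `S₀ = ⟨t, u⟩ × D`,
`A₁ = ⟨t, u, z, a⟩`, `A₂ = ⟨t, u, z, b⟩`, `Z₀ = ⟨t, u, z⟩`, `U = ⟨u, z⟩`. -/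

set_option autoImplicit false

namespace Cfsg.Agent.HSE

open Cfsg Subgroup Cfsg.Agent.PLocal Cfsg.Agent.PLocal.Amb Cfsg.Agent.MacW

/-- `g` conjugates `x` to `y` -/
def Cj {G : Type*} [Group G] (g x y : G) : Prop := g * x * g⁻¹ = y

/-- Boolean power -/
def bp {G : Type*} [Group G] (g : G) (i : Bool) : G := cond i g 1

/-- the data of the configuration -/
structure Dat (G : Type*) [Group G] where
  (X S K : Subgroup G)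
  (t u a b z r₁ r₂ : G)

variable {G : Type*} [Group G]

namespace Dat

variable (d : Dat G)

def D : Subgroup G := closure {d.a, d.b}
def S0 : Subgroup G := closure {d.t, d.u, d.a, d.b}
def A1 : Subgroup G := closure {d.t, d.u, d.z, d.a}
def A2 : Subgroup G := closure {d.t, d.u, d.z, d.b}
def Z0 : Subgroup G := closure {d.t, d.u, d.z}
def U : Subgroup G := closure {d.u, d.z}
/-- the centralizer of `t` -/
def C : Subgroup G := centralizer {d.t}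
/-- conjugates of `t` -/
def T (y : G) : Prop := IsConj d.t y

/-- the symmetry `u ↔ t u` -/
def tw : Dat G := { d with u := d.t * d.u }
/-- the symmetry `(a, u, r₁) ↔ (b, u z, r₂)` -/
def sw : Dat G := { d with a := d.b, b := d.a, u := d.u * d.z, r₁ := d.r₂, r₂ := d.r₁ }

/-- `g` acts on `S₀` by the given images of `t, u, a, b` -/
structure Ac (g t' u' a' b' : G) : Prop where
  t : Cj g d.t t'
  u : Cj g d.u u'
  a : Cj g d.a a'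
  b : Cj g d.b b'

/-- the local configuration -/
structure Cfq : Prop where
  nX : d.X.Normal
  sX : IsSimpleGroup d.X
  ncX : ¬ IsMulCommutative d.X
  gen : ∀ g : G, g ∈ d.X ∨ g * d.t ∈ d.X
  tt : d.t * d.t = 1
  uu : d.u * d.u = 1
  aa : d.a * d.a = 1
  bb : d.b * d.b = 1
  zz : d.z * d.z = 1
  ba : d.b * d.a = d.a * d.b * d.z
  za : d.z * d.a = d.a * d.z
  zb : d.z * d.b = d.b * d.z
  z1 : d.z ≠ 1
  ut : d.u * d.t = d.t * d.u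
  at' : d.a * d.t = d.t * d.a
  bt : d.b * d.t = d.t * d.b
  au : d.a * d.u = d.u * d.a
  bu : d.b * d.u = d.u * d.b
  syl : IsSyl 2 d.S d.C
  le : d.S0 ≤ d.S
  KC : d.K ≤ d.C
  nK : d.C ≤ 𝐍[d.K]
  KX : d.K ≤ d.X
  KS : d.K ⊓ d.S0 = d.D
  tK : d.t ∉ d.K
  uK : d.u ∉ d.K
  tuK : d.t * d.u ∉ d.K
  r1K : d.r₁ ∈ d.K
  r2K : d.r₂ ∈ d.K
  r1z : Cj d.r₁ d.z d.a
  r1a : Cj d.r₁ d.a (d.a * d.z)
  r1u : Cj d.r₁ d.u d.u
  r2z : Cj d.r₂ d.z d.b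
  r2b : Cj d.r₂ d.b (d.b * d.z)
  r2u : Cj d.r₂ (d.u * d.z) (d.u * d.z)

/-- `ε = 1` -/
def E1 : Prop := d.S = d.S0

/-- `ε = 2`, general form -/
structure E2' (w : G) : Prop where
  mem : w ∈ d.S
  cov : ∀ s ∈ d.S, s ∈ d.S0 ∨ s * w⁻¹ ∈ d.S0
  a : Cj w d.a d.b
  b : Cj w d.b d.a
  u : Cj w d.u (d.u * d.z) ∨ Cj w d.u (d.t * d.u * d.z)
  ww : w * w = 1 ∨ w * w = d.t

/-- `ε = 2` -/
structure E2 (w : G) : Prop where
  mem : w ∈ d.S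
  cov : ∀ s ∈ d.S, s ∈ d.S0 ∨ s * w⁻¹ ∈ d.S0
  a : Cj w d.a d.b
  b : Cj w d.b d.a
  u : Cj w d.u (d.u * d.z)
  ww : w * w = 1 ∨ w * w = d.t

/-- `z`, `u`, `u z` are not conjugate to `t` -/
structure NT : Prop where
  z : ¬ d.T d.z
  u : ¬ d.T d.u
  uz : ¬ d.T (d.u * d.z)

/-- The translation layer over `A₁`: `M₁ = ⟨z, a, e, f⟩` is `2⁴` (`l = false`) or `4 × 4`. -/
structure Lay (e f ρ : G) (l : Bool) : Prop where
  ac : d.Ac e (d.t * d.z) d.u d.a d.b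
  ft : Cj f d.t (d.t * d.a)
  fu : Cj f d.u d.u
  fz : Cj f d.z d.z
  fa : Cj f d.a d.a
  fe : Cj f e e
  fb : Cj f d.b (e * bp d.a l * d.b)
  ee : e * e = bp d.z l
  ff : f * f = bp d.a l
  pt : Cj ρ d.t d.t
  pu : Cj ρ d.u d.u
  pz : Cj ρ d.z d.a
  pa : Cj ρ d.a (d.a * d.z)
  pe : Cj ρ e f
  pf : Cj ρ f (e * f)⁻¹
  bp' : d.b * ρ * d.b * ρ = 1
  odd : Odd (orderOf ρ)

/-- translation layers over `A₁` and `A₂` -/
structure LN (e f₁ f₂ ρ₁ ρ₂ : G) (l β : Bool) : Prop where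
  l1 : d.Lay e f₁ ρ₁ l
  l2 : d.sw.Lay (e * bp d.u β) f₂ ρ₂ l

/-- the three members (a), (a'), (c0) of the family `N2` -/
def SymN (e f₁ f₂ : G) (β : Bool) : Prop :=
  (d.E1 ∧ ¬ d.T (d.t * d.u) ∧ ¬ d.T (d.t * d.u * d.z)) ∨
  (¬ d.T (d.t * d.u) ∧ ∃ w, d.E2 w ∧ Cj w e (e * bp d.u β) ∧ Cj w f₁ f₂ ∧ w * w = bp d.t β) ∨
  (d.E1 ∧ ∃ g, d.Ac g (d.t * d.u) (d.u * d.z) d.b d.a ∧ Cj g e (e * bp d.u β) ∧ Cj g f₁ f₂ ∧
    g * g = e * bp d.t β)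

/-- type (I, I): `E₁ = ⟨u, z, a, e, h, f₁⟩` and `E₂ = ⟨u, z, b, e, h, f₂⟩` are `2⁶` or `4³` -/
structure LI (e h f₁ f₂ ρ₁ ρ₂ : G) (l β : Bool) : Prop extends d.LN e f₁ f₂ ρ₁ ρ₂ l β where
  ach : d.Ac h (d.t * d.u) d.u d.a d.b
  he : Cj h e e
  hf1 : Cj h f₁ f₁
  hf2 : Cj h f₂ f₂
  hh : h * h = bp d.u l
  p1h : Cj ρ₁ h h
  p2h : Cj ρ₂ (h * e * bp d.u l) (h * e * bp d.u l)

/-- the element `w` in type (I, I) -/
structure WI (w e h f₁ f₂ : G) (l β : Bool) : Prop extends d.E2 w where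
  we : Cj w e (e * bp d.u β)
  wf : Cj w f₁ f₂
  wh : Cj w h (h * e * bp d.u l)
  w2 : w * w = bp d.t β

/-- The layer of type II over `A₁`: `R₁ = ⟨u, z, a, r, s⟩ ≅ 2^{1+4}_+`, centralized by `h`. -/
structure LayII (r s h ρ : G) (μ ν : Bool) : Prop where
  acr : d.Ac r (d.t * d.u * d.z) d.u (d.a * d.u) d.b
  rr : r * r = 1
  st : Cj s d.t (d.t * d.a * d.u)
  su : Cj s d.u d.u
  sz : Cj s d.z (d.z * d.u)
  sa : Cj s d.a d.a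
  sb : Cj s d.b (r * d.b)
  ss : s * s = 1
  sr : Cj s r r
  ach : d.Ac h (d.t * d.u) d.u d.a (d.b * bp d.u ν)
  hr : Cj h r r
  hs : Cj h s s
  hh : h * h = bp d.u μ
  pt : Cj ρ d.t d.t
  pu : Cj ρ d.u d.u
  pz : Cj ρ d.z d.a
  pa : Cj ρ d.a (d.a * d.z)
  pr : Cj ρ r s
  ps : Cj ρ s (r * s)
  ph : Cj ρ h h
  bp' : d.b * ρ * d.b * ρ = 1
  odd : Odd (orderOf ρ)

/-- case (b) -/
structure CB : Prop where
  e1 : d.E1
  u : d.T d.u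
  z : ¬ d.T d.z
  tz : ¬ d.T (d.t * d.z)
  uz : ¬ d.T (d.u * d.z)
  tu : ¬ d.T (d.t * d.u)
  tuz : ¬ d.T (d.t * d.u * d.z)

/-- the family `N2` -/
def CN : Prop := d.NT ∧ (∃ e, d.Ac e (d.t * d.z) d.u d.a d.b) ∧
  ((¬ d.T (d.t * d.u) ∧ ¬ d.T (d.t * d.u * d.z) ∧ (d.E1 ∨ ∃ w, d.E2 w)) ∨
    (d.E1 ∧ ∃ g, d.Ac g (d.t * d.u) (d.u * d.z) d.b d.a))

/-- type (I, I) -/
def CI : Prop := d.NT ∧ (∃ e, d.Ac e (d.t * d.z) d.u d.a d.b) ∧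
  (∃ h, d.Ac h (d.t * d.u) d.u d.a d.b) ∧ (d.E1 ∨ ∃ w, d.E2 w)

/-- type (II, II) -/
def CII : Prop := d.NT ∧ (∃ r, d.Ac r (d.t * d.u * d.z) d.u (d.a * d.u) d.b) ∧
  (∃ h, d.Ac h (d.t * d.u) d.u d.a (d.b * d.u)) ∧ (d.E1 ∨ ∃ w, d.E2 w)

/-- type (II, I) -/
def CIII : Prop := d.NT ∧ (∃ r, d.Ac r (d.t * d.u * d.z) d.u (d.a * d.u) d.b) ∧
  (∃ h, d.Ac h (d.t * d.u) d.u d.a d.b) ∧ d.E1

end Dat

/-- the Sylow `2`-subgroups have order at most `1024` -/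
def Bd (G : Type*) [Group G] : Prop := ∃ P : Subgroup G, IsSyl 2 P ⊤ ∧ Nat.card P ≤ 1024

end Cfsg.Agent.HSE
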