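import Cfsg.Agent.HSE.Pc2

/-! Table group `Q = ⟨u⟩ × (4 × 4)⟨t⟩` and its automorphisms (generated). -/

set_option autoImplicit false
set_option maxRecDepth 100000

namespace Cfsg.Agent.HSE

open Cfsg.Agent.Comp Cfsg.Agent.X32

namespace N1Q

def C0 : ℕ := 0x0
def C1 : ℕ := 0x10000
def C2 : ℕ := 0x3000200010000
def C3 : ℕ := 0x70006000500040003000200010000
def C4 : ℕ := 0xf000e000d000c000b000a0009000800070006000500040003000200010000
def C5 : ℕ := 0x1c001d001e001f00180019001a001b00150014001700160011001000130012000e000f000c000d000a000b0008000900070006000500040003000200010000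
def L : List Pc.Lv := [⟨5, 32, 64, 0, C5⟩, ⟨4, 16, 32, 2, C4⟩, ⟨3, 8, 16, 1, C3⟩, ⟨2, 4, 8, 0, C2⟩, ⟨1, 2, 4, 0, C1⟩, ⟨0, 1, 2, 0, C0⟩]
def R : List (ℕ × ℕ × List ℕ) := [(0, 0, []), (1, 1, []), (1, 0, [0]), (2, 2, []), (2, 0, [0]), (2, 1, [1]), (3, 3, [0]), (3, 0, [0]), (3, 1, [1]), (3, 2, [2]), (4, 4, [1]), (4, 0, [0]), (4, 1, [1]), (4, 2, [2]), (4, 3, [3]), (5, 5, []), (5, 0, [0]), (5, 1, [1]), (5, 2, [2]), (5, 3, [16, 3]), (5, 4, [17, 4])]
theorem hc : Pc.chk L = true := by decide +kernel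
instance ok : Fact (Pc.tab L).OK := ⟨Pc.ok hc⟩
abbrev K := TG (Pc.tab L)
noncomputable abbrev gz : K := Pc.gn 0
noncomputable abbrev gb : K := Pc.gn 1
noncomputable abbrev gu : K := Pc.gn 2
noncomputable abbrev ge : K := Pc.gn 3
noncomputable abbrev gf : K := Pc.gn 4
noncomputable abbrev gt : K := Pc.gn 5
noncomputable abbrev gs : List K := [gz, gb, gu, ge, gf, gt]
theorem card : Nat.card K = 64 := Pc.card hc
theorem hom {G : Type*} [Group G] {z b u e f t : G}
    (hz : z * z = 1)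
    (hb : b * b = 1)
    (hb_z : Cj b z (z))
    (hu : u * u = 1)
    (hu_z : Cj u z (z))
    (hu_b : Cj u b (b))
    (he : e * e = z)
    (he_z : Cj e z (z))
    (he_b : Cj e b (b))
    (he_u : Cj e u (u))
    (hf : f * f = b)
    (hf_z : Cj f z (z))
    (hf_b : Cj f b (b))
    (hf_u : Cj f u (u))
    (hf_e : Cj f e (e))
    (ht : t * t = 1)
    (ht_z : Cj t z (z))
    (ht_b : Cj t b (b))
    (ht_u : Cj t u (u))
    (ht_e : Cj t e (z⁻¹ * e))
    (ht_f : Cj t f (b⁻¹ * f)) :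
    ∃ φ : K →* G, φ gz = z ∧ φ gb = b ∧ φ gu = u ∧ φ ge = e ∧ φ gf = f ∧ φ gt = t ∧
      ∀ H : Subgroup G, z ∈ H → b ∈ H → u ∈ H → e ∈ H → f ∈ H → t ∈ H → φ.range ≤ H := by
  obtain ⟨φ, h⟩ := Pc.exists_hom (x := LES.tup [z, b, u, e, f, t]) (R := R) (by
    simp only [R, List.forall_mem_cons, List.not_mem_nil, false_imp_iff, implies_true, and_true]
    exact ⟨hz, hb, hb_z, hu, hu_z, hu_b, he, he_z, he_b, he_u, hf, hf_z, hf_b, hf_u, hf_e, ht, ht_z, ht_b, ht_u, ht_e, ht_f⟩) hc (by decide +kernel)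
  refine ⟨φ, h 0 (by decide), h 1 (by decide), h 2 (by decide), h 3 (by decide), h 4 (by decide), h 5 (by decide), fun H m0 m1 m2 m3 m4 m5 => Pc.range_le hc φ fun i hi => ?_⟩
  rw [h i hi]; change i < 6 at hi
  interval_cases i <;> assumption

end N1Q

namespace N1Q

open Pc

def Cr : ℕ := 0x2c002e002f002d0028002a002b0029003e003c003d003f003a00380039003b0035003700360034003100330032003000250027002600240021002300220020000c000e000f000d0008000a000b0009001e001c001d001f001a00180019001b0015001700160014001100130012001000050007000600040001000300020000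
def Ca : ℕ := 0x340035003700360030003100330032003d003c003e003f00390038003a003b002e002f002d002c002a002b002900280026002700250024002200230021002000140015001700160010001100130012001d001c001e001f00190018001a001b000e000f000d000c000a000b0009000800060007000500040002000300010000
def Ck (i : Bool) : ℕ := cond i 0x370036003500340032003300300031003e003f003c003d003b003a0039003800260027002400250023002200210020002f002e002d002c002a002b00280029001f001e001d001c001a001b0018001900170016001500140012001300100011000e000f000c000d000b000a0009000800060007000400050003000200010000 0x360037003400350033003200310030003f003e003d003c003a003b0038003900260027002400250023002200210020002f002e002d002c002a002b00280029001e001f001c001d001b001a0019001800160017001400150013001200110010000e000f000c000d000b000a0009000800060007000400050003000200010000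
def Cl (i : Bool) : ℕ := cond i 0x2f002e002d002c00290028002b002a00250024002700260023002200210020003d003c003f003e003b003a0039003800370036003500340031003000330032001f001e001d001c00190018001b001a00150014001700160013001200110010000f000e000d000c00090008000b000a00050004000700060003000200010000 0x2d002c002f002e002b002a0029002800250024002700260023002200210020003f003e003d003c00390038003b003a00370036003500340031003000330032001d001c001f001e001b001a0019001800150014001700160013001200110010000d000c000f000e000b000a0009000800050004000700060003000200010000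
def Cn (i : Bool) : ℕ := cond i 0x270026002500240020002100220023002d002c002f002e002a002b0028002900360037003400350031003000330032003c003d003e003f003b003a00390038001c001d001e001f001b001a0019001800170016001500140010001100120013000f000e000d000c00080009000a000b00040005000600070003000200010000 0x270026002500240020002100220023002e002f002c002d00290028002b002a00350034003700360032003300300031003c003d003e003f003b003a00390038001c001d001e001f001b001a0019001800140015001600170013001200110010000c000d000e000f000b000a0009000800040005000600070003000200010000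
def Cm (i : Bool) : ℕ := cond i 0x3e003f003c003d003a003b0038003900370036003500340033003200310030002c002d002e002f00280029002a002b00250024002700260021002000230022001c001d001e001f00180019001a001b00150014001700160011001000130012000e000f000c000d000a000b0008000900070006000500040003000200010000 0x3f003e003d003c003b003a0039003800370036003500340033003200310030002f002e002d002c002b002a0029002800270026002500240023002200210020001f001e001d001c001b001a0019001800170016001500140013001200110010000f000e000d000c000b000a0009000800070006000500040003000200010000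

instance evBp {T : Tab} [Fact T.OK] (g : TG T) (i : Bool) {m : ℕ} [TG.EV g m] :
    TG.EV (bp g i) (cond i m 0) := ⟨by cases i; exacts [rfl, TG.EV.h (a := g)]⟩

variable {G : Type*} [Group G]

/-- `g` acts on the image of `φ` by the table `C` -/
def Act (φ : K →* G) (g : G) (C : ℕ) : Prop := ∀ x, Cj g (φ x) (φ (lkE C x))

abbrev Six (C : ℕ) (wz wb wu we wf wt : K) : Prop :=
  lkE C gz = wz ∧ lkE C gb = wb ∧ lkE C gu = wu ∧ lkE C ge = we ∧ lkE C gf = wf ∧ lkE C gt = wt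

abbrev IsH (C : ℕ) : Prop :=
  lkE C (1 : K) = 1 ∧ ∀ s ∈ gs, ∀ v : K, lkE C (v * s) = lkE C v * lkE C s

theorem act {φ : K →* G} {g : G} {C : ℕ} {wz wb wu we wf wt : K} (H : IsH C) (S : Six C wz wb wu we wf wt)
    (hz : Cj g (φ gz) (φ wz)) (hb : Cj g (φ gb) (φ wb)) (hu : Cj g (φ gu) (φ wu)) (he : Cj g (φ ge) (φ we))
    (hf : Cj g (φ gf) (φ wf)) (ht : Cj g (φ gt) (φ wt)) : Act φ g C := by
  obtain ⟨rfl, rfl, rfl, rfl, rfl, rfl⟩ := S
  refine gn_ind hc (by rw [H.1, map_one]; exact Cj.one g) fun i hi v a => ?_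
  have : (gn i : K) ∈ gs ∧ Cj g (φ (gn i)) (φ (lkE C (gn i))) := by
    change i < 6 at hi
    interval_cases i <;> exact ⟨by simp, by assumption⟩
  rw [H.2 _ this.1, map_mul, map_mul]
  exact a.mul this.2

theorem Act.six {φ : K →* G} {g : G} {C : ℕ} {wz wb wu we wf wt : K} (h : Act φ g C) (S : Six C wz wb wu we wf wt) :
    Cj g (φ gz) (φ wz) ∧ Cj g (φ gb) (φ wb) ∧ Cj g (φ gu) (φ wu) ∧ Cj g (φ ge) (φ we) ∧
      Cj g (φ gf) (φ wf) ∧ Cj g (φ gt) (φ wt) := by
  obtain ⟨rfl, rfl, rfl, rfl, rfl, rfl⟩ := S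
  exact ⟨h _, h _, h _, h _, h _, h _⟩

theorem hr : IsH Cr := BD.of (by decide +kernel)
theorem ha' : IsH Ca := BD.of (by decide +kernel)
theorem hk (i : Bool) : IsH (Ck i) := by cases i <;> exact BD.of (by decide +kernel)
theorem sr : Six Cr gb (gb * gz) gu gf (ge * gf)⁻¹ gt := BD.of (by decide +kernel)
theorem sa : Six Ca gz (gb * gz) gu ge ((ge * gb)⁻¹ * gf) gt := BD.of (by decide +kernel)
theorem sk (i : Bool) : Six (Ck i) gz gb (gu * gz) ge (gf * bp gz i) (gt * ge) := by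
  cases i <;> exact BD.of (by decide +kernel)
theorem sl (i : Bool) : Six (Cl i) gz gb (gu * gb) (ge * bp gb i) gf (gt * gf) := by
  cases i <;> exact BD.of (by decide +kernel)
theorem r3 : ∀ x : K, lkE Cr (lkE Cr (lkE Cr x)) = x := BD.of (by decide +kernel)
theorem rk (i : Bool) : ∀ x : K, lkE (Cl i) (lkE Cr x) = lkE Cr (lkE (Ck i) x) := by
  cases i <;> exact BD.of (by decide +kernel)
theorem rl (i : Bool) : ∀ x : K, lkE (Cn i) (lkE Cr x) = lkE Cr (lkE (Cl i) x) := by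
  cases i <;> exact BD.of (by decide +kernel)
theorem rm (i : Bool) : ∀ x : K, Cj (bp (gt * gf * gz) i) x (lkE (Ck i) (lkE (Cl i) (lkE (Cn i) x))) := by
  cases i <;> exact BD.of (by decide +kernel)
theorem mval (i : Bool) : ∀ m : K, (∀ s ∈ gs, Commute ((bp (gt * gf * gz) i)⁻¹ * m) s) →
    lkE (Ck i) (lkE Cr m) = m → m = bp (gt * gf * gz) i ∨
      lkE (Ck i) gu * lkE (Ck i) (lkE (Cl i) gu) * gu * m = bp (gt * gf * gz) i := by
  cases i <;> exact BD.of (by decide +kernel)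
theorem lkv (i : Bool) : lkE (Cl i) (lkE Ca (bp (gt * gf * gz) i)) * (bp (gt * gf * gz) i)⁻¹ =
    bp (gb * ge * gf) i := by
  cases i <;> exact BD.of (by decide +kernel)
theorem rsq (i : Bool) : lkE Cr (ge * bp gz i) = gf * bp gb i := by
  cases i <;> exact BD.of (by decide +kernel)
theorem zen : ∀ k : K, (∀ g ∈ gs, k * g = g * k) → k * k = 1 →
    k = 1 ∨ k ∈ [gz, gb, gb * gz, gu, gu * gz, gu * gb, gu * gb * gz] := BD.of (by decide +kernel)
theorem cu : ∀ s : K, Commute s ge → Commute s gf → Commute s gt → Msk 60 s ∨ Msk 60 (gu⁻¹ * s) :=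
  BD.of (by decide +kernel)
theorem ce : ∀ s : K, s * s = gz → Msk 56 (ge⁻¹ * s) := BD.of (by decide +kernel)
theorem cf : ∀ s : K, s * s = gb → Msk 56 (gf⁻¹ * s) := BD.of (by decide +kernel)
theorem ct : ∀ s : K, Msk 32 s ∨ Msk 32 (gt⁻¹ * s) := BD.of (by decide +kernel)
theorem uc : ∀ s : K, Commute gu s := BD.of (by decide +kernel)
theorem two : ∀ p : K, p * p = 1 → ¬ Commute p gt → ∀ q : K, q * q = 1 → ¬ Commute q gt →
    Msk 56 (p⁻¹ * q) ∨ Msk 56 (p⁻¹ * lkE Cr q) ∨ Msk 56 (p⁻¹ * lkE Cr (lkE Cr q)) := BD.of (by decide +kernel)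

theorem msk {φ : K →* G} {H : Subgroup G} (m : ℕ) (l : List K) (h1 : Msk m (1 : K))
    (h2 : ∀ k : K, Msk m k → (∀ g ∈ l, Msk m (g * k)) ∧ (k = 1 ∨ ∃ g ∈ l, (g * k).v < k.v))
    (h : ∀ g ∈ l, φ g ∈ H) {x : K} (hx : Msk m x) : φ x ∈ H :=
  (Subgroup.closure_le (H.comap φ)).2 h ((mem_closure_iff l (Msk m) h1 h2 x).2 hx)

theorem mskV {φ : K →* G} {H : Subgroup G} (h1 : φ gz ∈ H) (h2 : φ gb ∈ H) {x : K} (hx : Msk 60 x) : φ x ∈ H :=
  msk 60 [gz, gb] (BD.of (by decide +kernel)) (BD.of (by decide +kernel)) (by simp [h1, h2]) hx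

theorem mskU {φ : K →* G} {H : Subgroup G} (h1 : φ gz ∈ H) (h2 : φ gb ∈ H) (h3 : φ gu ∈ H) {x : K}
    (hx : Msk 56 x) : φ x ∈ H :=
  msk 56 [gz, gb, gu] (BD.of (by decide +kernel)) (BD.of (by decide +kernel)) (by simp [h1, h2, h3]) hx

theorem mskM {φ : K →* G} {H : Subgroup G} (h1 : φ gz ∈ H) (h2 : φ gb ∈ H) (h3 : φ gu ∈ H) (h4 : φ ge ∈ H)
    (h5 : φ gf ∈ H) {x : K} (hx : Msk 32 x) : φ x ∈ H :=
  msk 32 [gz, gb, gu, ge⁻¹, gf⁻¹] (BD.of (by decide +kernel)) (BD.of (by decide +kernel))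
    (by simp [h1, h2, h3, h4, h5]) hx

theorem rels : gz * gz = 1 ∧ gb * gb = 1 ∧ Cj gb gz (gz) ∧ gu * gu = 1 ∧ Cj gu gz (gz) ∧ Cj gu gb (gb) ∧ ge * ge = gz ∧ Cj ge gz (gz) ∧ Cj ge gb (gb) ∧ Cj ge gu (gu) ∧ gf * gf = gb ∧ Cj gf gz (gz) ∧ Cj gf gb (gb) ∧ Cj gf gu (gu) ∧ Cj gf ge (ge) ∧ gt * gt = 1 ∧ Cj gt gz (gz) ∧ Cj gt gb (gb) ∧ Cj gt gu (gu) ∧ Cj gt ge (gz⁻¹ * ge) ∧ Cj gt gf (gb⁻¹ * gf) :=
  BD.of (by decide +kernel)

end N1Q

/-- the facts on the group `T` of order 512 -/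
structure N1F {K : Type*} [Group K] (z b u t : K) : Prop where
  two : IsPGroup 2 K
  hz : ∀ y : K, y * y = 1 → (∀ g, Commute y g) → y = 1 ∨ y = z
  zc : ∀ g, Commute z g
  zz : z * z = 1
  hV : ∀ y : K, (y * y = 1 ∧ ∀ g, y * g * y⁻¹ * g⁻¹ ∈ [1, z]) ↔ y ∈ [1, z, b, z * b]
  hU : ∀ y : K, (y * y = 1 ∧ ∀ g, y * g * y⁻¹ * g⁻¹ ∈ [1, z, b, z * b]) ↔
    y ∈ [1, z, b, z * b, u, z * u, b * u, z * b * u]
  cl : ∀ y : K, y * y = 1 → Commute y b → Commute y u →
    y ∈ [1, z, b, z * b, u, z * u, b * u, z * b * u] ∨ IsConj t y ∨ IsConj (t * u) y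
  tU : t ∉ [1, z, b, z * b, u, z * u, b * u, z * b * u]
  tc : ∀ v ∈ [1, z, b, z * b, u, z * u, b * u, z * b * u], Commute t v
  tt : t * t = 1
  M : ∃ M : Subgroup K, M.index = 2 ∧ ∀ y ∈ M, y * y = 1 → y ≠ 1 → ∀ p q : K, Commute p y → Commute q y →
    Commute p q → p * p * (p * p) = 1 → q * q * (q * q) = 1 → p * p ≠ 1 → q * q ≠ 1 → p * p ≠ q * q →
    y ∈ [p * p, q * q, p * p * (q * q)]

theorem N1F.of {L : List Pc.Lv} [Fact (Pc.tab L).OK] (hc : Pc.chk L = true) {z b u t : TG (Pc.tab L)}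
    (gs is reps l4 : List (TG (Pc.tab L))) (Pt Rt : ℕ)
    (f1 : ∀ y : TG (Pc.tab L), y * y = 1 → ((∀ g ∈ gs, Commute y g) → y = 1 ∨ y = z) ∧
      ((∀ g ∈ gs, y * g * y⁻¹ * g⁻¹ ∈ [1, z]) → y ∈ [1, z, b, z * b]) ∧
      ((∀ g ∈ gs, y * g * y⁻¹ * g⁻¹ ∈ [1, z, b, z * b]) → y ∈ [1, z, b, z * b, u, z * u, b * u, z * b * u]) ∧
      (Commute y b → Commute y u → y ∈ [1, z, b, z * b, u, z * u, b * u, z * b * u] ∨
        Cj (Pc.lkE Pt y) t y ∨ Cj (Pc.lkE Pt y) (t * u) y) ∧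
      (Pc.Msk 4 y → y = 1 ∨ (Cj (Pc.lkE Pt y) (Pc.lkE Rt y) y ∧ Pc.lkE Rt y ∈ reps)))
    (f2 : ∀ g, Commute z g ∧ (∀ y ∈ [1, z, b, z * b], y * g * y⁻¹ * g⁻¹ ∈ [1, z]) ∧
      ∀ y ∈ [1, z, b, z * b, u, z * u, b * u, z * b * u], y * g * y⁻¹ * g⁻¹ ∈ [1, z, b, z * b])
    (f3 : (∀ y ∈ [1, z, b, z * b, u, z * u, b * u, z * b * u], y * y = 1 ∧ Commute t y) ∧ t * t = 1 ∧
      t ∉ [1, z, b, z * b, u, z * u, b * u, z * b * u] ∧ Pc.Msk 4 (1 : TG (Pc.tab L)) ∧ ¬ Pc.Msk 4 u)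
    (f4 : ∀ k : TG (Pc.tab L), k = 1 ∨ ∃ g ∈ is, (g * k).v < k.v)
    (f5 : ∀ g ∈ is, ∀ k, Pc.Msk 4 (g * k) ↔ (Pc.Msk 4 g ↔ Pc.Msk 4 k))
    (f6 : ∀ p : TG (Pc.tab L), p * p * (p * p) = 1 → p * p = 1 ∨ p ∈ l4)
    (f7 : ∀ r ∈ reps, ∀ p ∈ l4, Commute p r → r = p * p ∨ ∀ q ∈ l4, Commute p q → Commute q r →
      p * p = q * q ∨ r ∈ [q * q, p * p * (q * q)]) : N1F z b u t := by
  obtain ⟨M, hM, mem⟩ := Pc.exists_index_two is (Pc.Msk 4) f3.2.2.2.1 f4 f5 f3.2.2.2.2
  refine ⟨Pc.pgrp hc, fun y a b => (f1 y a).1 fun g _ => b g, fun g => (f2 g).1, (f3.1 z (by simp)).1,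
    fun y => ⟨fun a => (f1 y a.1).2.1 fun g _ => a.2 g, fun a => ⟨(f3.1 y (by
      simp only [List.mem_cons] at a ⊢; tauto)).1, fun g => (f2 g).2.1 y a⟩⟩,
    fun y => ⟨fun a => (f1 y a.1).2.2.1 fun g _ => a.2 g, fun a => ⟨(f3.1 y a).1, fun g => (f2 g).2.2 y a⟩⟩,
    fun y a b c => ((f1 y a).2.2.2.1 b c).imp id (Or.imp Cj.isConj Cj.isConj), f3.2.2.1,
    fun v hv => (f3.1 v hv).2, f3.2.1, M, hM, fun y hy yy y1 p q c1 c2 c3 p4 q4 p2 q2 pq => ?_⟩
  obtain ⟨e, hr⟩ := ((f1 y yy).2.2.2.2 ((mem y).1 hy)).resolve_left y1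
  generalize Pc.lkE Pt y = w at e
  generalize Pc.lkE Rt y = r at e hr
  obtain rfl : w * r * w⁻¹ = y := e
  obtain ⟨p, rfl⟩ := (MulAut.conj w).surjective p
  obtain ⟨q, rfl⟩ := (MulAut.conj w).surjective q
  change MulAut.conj w r ∈ _
  change Commute _ (MulAut.conj w r) at c1 c2
  generalize MulAut.conj w = α at *
  have cm : ∀ {x y}, Commute (α x) (α y) → Commute x y := fun k => α.injective (by simpa using k.eq)
  simp only [← map_mul, Ne, EmbeddingLike.map_eq_one_iff, EmbeddingLike.apply_eq_iff_eq, List.mem_cons,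
    List.not_mem_nil, or_false] at p4 q4 p2 q2 pq ⊢
  rcases f7 r hr p ((f6 p p4).resolve_left p2) (cm c1) with k | k
  · exact Or.inl k
  · right
    simpa using (k q ((f6 q q4).resolve_left q2) (cm c3) (cm c2)).resolve_left pq

end Cfsg.Agent.HSE
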