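import Mathlib
import Cfsg.Agent.X32.Tab
import Cfsg.Agent.HSE.Defs

/-! Table groups `TG (tab L)` of order `2 ^ n` (`n ≤ 16`) from power-conjugate presentations
`x_j² = w`, `x_j x_i x_j⁻¹ = w` (`i < j`); generated by `tools/hsd_pc.py`. -/

set_option autoImplicit false
set_option linter.unusedSectionVars false

namespace Cfsg.Agent.HSE

section
variable {G : Type*} [Group G] {g k x y x' y' : G}
theorem Cj.mul (h : Cj g x y) (h' : Cj g x' y') : Cj g (x * x') (y * y') := by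
  unfold Cj at *; rw [← h, ← h']; group
theorem Cj.inv (h : Cj g x y) : Cj g x⁻¹ y⁻¹ := by unfold Cj at *; rw [← h]; group
theorem Cj.pow (h : Cj g x y) (n : ℕ) : Cj g (x ^ n) (y ^ n) := by
  unfold Cj at *; rw [← h, conj_pow]
theorem Cj.symm (h : Cj g x y) : Cj g⁻¹ y x := by unfold Cj at *; rw [← h]; group
/-- first `k`, then `g` -/
theorem Cj.comp (h : Cj k x y) (h' : Cj g y y') : Cj (g * k) x y' := by
  unfold Cj at *; rw [← h', ← h]; group
theorem Cj.flip (h : Cj g x x) : Cj x g g := by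
  unfold Cj at *; rw [mul_inv_eq_iff_eq_mul] at *; exact h.symm
theorem Cj.flipL (h : Cj g x (y * x)) : Cj x g (y⁻¹ * g) := by
  unfold Cj at *
  have : y = g * x * g⁻¹ * x⁻¹ := by rw [h]; group
  rw [this]; group
theorem Cj.flipR (h : Cj g x (x * y)) : Cj x⁻¹ g (y * g) := by
  unfold Cj at *
  have : y = x⁻¹ * (g * x * g⁻¹) := by rw [h]; group
  rw [this]; group
theorem Cj.of_comm (h : g * x = x * g) : Cj g x x := by unfold Cj; rw [h]; group
theorem Cj.comm (h : Cj g x x) : g * x = x * g := by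
  unfold Cj at h; rwa [mul_inv_eq_iff_eq_mul] at h
theorem Cj.self (g : G) : Cj g g g := by unfold Cj; group
theorem Cj.one (g : G) : Cj g 1 1 := by unfold Cj; group
theorem Cj.one' (x : G) : Cj 1 x x := by unfold Cj; group
theorem Cj.to (h : Cj g x y) (e : y = y') : Cj g x y' := e ▸ h
theorem Cj.isConj (h : Cj g x y) : IsConj x y := isConj_iff.2 ⟨g, h⟩
theorem Cj.unique (h : Cj g x y) (h' : Cj g x y') : y = y' := Eq.trans (Eq.symm h) h'
theorem Cj.bp (h : Cj g x y) (i : Bool) : Cj g (bp x i) (bp y i) := by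
  cases i
  · exact Cj.one g
  · exact h
@[simp] theorem bp_true (g : G) : bp g true = g := rfl
@[simp] theorem bp_false (g : G) : bp g false = 1 := rfl
end

namespace Pc

open Cfsg.Agent.Comp Cfsg.Agent.X32

/-- lookup with sixteen bits -/
noncomputable def lk (C u : ℕ) : ℕ := Nat.land (Nat.shiftRight C (Nat.shiftLeft u 4)) 65535

noncomputable def stp (h p C : ℕ) (m : ℕ → ℕ → ℕ) (u v : ℕ) : ℕ :=
  force u fun u => force v fun v =>
    ite' (Nat.ble h u)
      (ite' (Nat.ble h v)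
        (ite' (Nat.beq p 0) (m (Nat.sub u h) (lk C (Nat.sub v h)))
          (m (m (Nat.sub u h) (lk C (Nat.sub v h))) p))
        (Nat.add h (m (Nat.sub u h) (lk C v))))
      (ite' (Nat.ble h v) (Nat.add h (m u (Nat.sub v h))) (m u v))

noncomputable def sti (h p C : ℕ) (m : ℕ → ℕ → ℕ) (iv : ℕ → ℕ) (u : ℕ) : ℕ :=
  force u fun u => ite' (Nat.ble h u) (Nat.add h (lk C (iv (m (Nat.sub u h) p)))) (iv u)

/-- a level: `h = 2 ^ j`, `n = 2 h`, `p` the number of `x_j²`, `C` the table of conjugation -/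
structure Lv where
  (j h n p C : ℕ)

noncomputable def ext (T : Tab) (l : Lv) : Tab :=
  ⟨l.n, stp l.h l.p l.C T.mu, sti l.h l.p l.C T.mu T.iv⟩

noncomputable def tab (L : List Lv) : Tab :=
  List.rec (motive := fun _ => Tab) ⟨1, fun _ _ => 0, fun _ => 0⟩ (fun l _ T => ext T l) L

noncomputable def chk1 (T : Tab) (j : ℕ) (l : Lv) : Bool :=
  and' (and' (and' (Nat.beq l.j j) (Nat.beq l.h (Nat.pow 2 j))) (and' (Nat.beq l.n (Nat.add l.h l.h))
    (and' (Nat.blt l.p l.h) (and' (Nat.beq (lk l.C 0) 0) (Nat.beq (lk l.C l.p) l.p)))))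
  (and' (allB l.h fun u => Nat.blt (lk l.C u) l.h)
    (allLT j fun i => force (Nat.pow 2 i) fun t => force (lk l.C t) fun c =>
      and' (Nat.beq (T.mu (lk l.C c) l.p) (T.mu l.p t))
        (allB l.h fun u => Nat.beq (lk l.C (T.mu u t)) (T.mu (lk l.C u) c))))

noncomputable def len (L : List Lv) : ℕ :=
  List.rec (motive := fun _ => ℕ) 0 (fun _ _ n => Nat.succ n) L

noncomputable def chk (L : List Lv) : Bool :=
  List.rec (motive := fun _ => Bool) true (fun l L b => and' b (chk1 (tab L) (len L) l)) L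

structure Good (T : Tab) (j : ℕ) : Prop where
  ok : T.OK
  n : T.n = 2 ^ j
  gen : ∀ i < j, ∀ v < 2 ^ i, T.mu v (2 ^ i) = 2 ^ i + v

theorem Good.ind {T : Tab} {j : ℕ} (H : Good T j) {p : ℕ → Prop} (h0 : p 0)
    (h1 : ∀ i < j, ∀ v < 2 ^ j, p v → p (T.mu v (2 ^ i))) : ∀ u < 2 ^ j, p u := by
  have : ∀ i ≤ j, ∀ u < 2 ^ i, p u := by
    intro i hi
    induction i with
    | zero => intro u hu; obtain rfl : u = 0 := by omega
              exact h0
    | succ i ih =>
      intro u hu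
      rcases lt_or_ge u (2 ^ i) with h | h
      · exact ih (by omega) u h
      · have h2 : u - 2 ^ i < 2 ^ i := by omega
        have h3 := h1 i hi _ (h2.trans (Nat.pow_lt_pow_right one_lt_two hi)) (ih (by omega) _ h2)
        rwa [H.gen i hi _ h2, Nat.add_sub_cancel' h] at h3
  exact this j le_rfl

structure Spec (T : Tab) (j : ℕ) (l : Lv) : Prop where
  ej : l.j = j
  h : l.h = 2 ^ j
  n : l.n = l.h + l.h
  p : l.p < l.h
  c0 : lk l.C 0 = 0
  cp : lk l.C l.p = l.p
  lt : ∀ u < l.h, lk l.C u < l.h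
  sq : ∀ i < j, T.mu (lk l.C (lk l.C (2 ^ i))) l.p = T.mu l.p (2 ^ i)
  hom : ∀ i < j, ∀ u < l.h, lk l.C (T.mu u (2 ^ i)) = T.mu (lk l.C u) (lk l.C (2 ^ i))

theorem spec_of {T : Tab} {j : ℕ} {l : Lv} (h : chk1 T j l = true) : Spec T j l := by
  simp only [chk1, and'_eq_true, allLT_iff, allB_iff, force_eq, blt_iff, beq_iff] at h
  obtain ⟨⟨⟨a, b⟩, c, d, e, f⟩, g, k⟩ := h
  exact ⟨a, b, c, d, e, f, g, fun i hi => (k i hi).1, fun i hi => (k i hi).2⟩

section
variable {h p C : ℕ} {m : ℕ → ℕ → ℕ} {iv : ℕ → ℕ} {u v : ℕ}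
theorem n1 (hu : u < h) : Nat.ble h u = false :=
  Bool.eq_false_iff.2 fun c => not_le.2 hu ((ble_iff _ _).1 c)
theorem n2 : Nat.ble h (h + u) = true := (ble_iff _ _).2 (Nat.le_add_right _ _)
theorem n3 : Nat.sub (h + u) h = u := Nat.add_sub_cancel_left _ _
theorem s00 (hu : u < h) (hv : v < h) : stp h p C m u v = m u v := by
  simp only [stp, force_eq, n1 hu, n1 hv, ite'_false]
theorem s01 (hu : u < h) : stp h p C m u (h + v) = h + m u v := by
  simp only [stp, force_eq, n1 hu, n2, n3, ite'_false, ite'_true]; rfl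
theorem s10 (hv : v < h) : stp h p C m (h + u) v = h + m u (lk C v) := by
  simp only [stp, force_eq, n1 hv, n2, n3, ite'_false, ite'_true]; rfl
theorem s11 (h0 : m (m u (lk C v)) 0 = m u (lk C v)) :
    stp h p C m (h + u) (h + v) = m (m u (lk C v)) p := by
  simp only [stp, force_eq, n2, n3, ite'_true]
  rw [ite'_eq]
  split_ifs with c
  · rw [(beq_iff _ _).1 c, h0]
  · rfl
theorem i0 (hu : u < h) : sti h p C m iv u = iv u := by
  simp only [sti, force_eq, n1 hu, ite'_false]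
theorem i1 : sti h p C m iv (h + u) = h + lk C (iv (m u p)) := by
  simp only [sti, force_eq, n2, n3, ite'_true]; rfl
end

theorem Good.step {T : Tab} {j : ℕ} {l : Lv} (H : Good T j) (S : Spec T j l) :
    Good (ext T l) (j + 1) := by
  have : Fact T.OK := ⟨H.ok⟩
  have hn : T.n = l.h := H.n.trans S.h.symm
  let τ : TG T → TG T := fun k => ⟨lk l.C k.v, hn ▸ S.lt _ (hn ▸ k.lt)⟩
  let P : TG T := ⟨l.p, hn ▸ S.p⟩
  have hi2 : ∀ i < j, 2 ^ i < T.n := fun i hi => H.n ▸ Nat.pow_lt_pow_right one_lt_two hi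
  have ind : ∀ q : TG T → Prop, q 1 → (∀ i (hi : i < j) v, q v → q (v * ⟨2 ^ i, hi2 i hi⟩)) →
      ∀ k, q k := fun q q0 q1 k =>
    H.ind (p := fun u => ∀ hu : u < T.n, q ⟨u, hu⟩) (fun _ => q0)
      (fun i hi v hv a _ => q1 i hi ⟨v, H.n ▸ hv⟩ (a _)) k.v (H.n ▸ k.lt) k.lt
  have t1 : τ 1 = 1 := TG.ext S.c0
  have t2 : ∀ i (hi : i < j) v, τ (v * ⟨2 ^ i, hi2 i hi⟩) = τ v * τ ⟨2 ^ i, hi2 i hi⟩ :=
    fun i hi v => TG.ext (S.hom i hi _ (hn ▸ v.lt))
  have tm : ∀ b a, τ (a * b) = τ a * τ b := ind _ (by simp [t1]) fun i hi v a b => by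
    rw [← mul_assoc, t2 i hi, a, t2 i hi, mul_assoc]
  have tp : τ P = P := TG.ext S.cp
  have ts : ∀ a, τ (τ a) * P = P * a := ind _ (by simp [t1]) fun i hi v a => by
    have e : τ (τ ⟨2 ^ i, hi2 i hi⟩) * P = P * ⟨2 ^ i, hi2 i hi⟩ := TG.ext (S.sq i hi)
    rw [tm, tm, mul_assoc, e, ← mul_assoc, a, mul_assoc]
  let E : TG T × Bool → ℕ := fun a => cond a.2 (l.h + a.1.v) a.1.v
  let M : TG T × Bool → TG T × Bool → TG T × Bool := fun a b =>
    cond a.2 (cond b.2 (a.1 * τ b.1 * P, false) (a.1 * τ b.1, true)) (a.1 * b.1, b.2)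
  let I : TG T × Bool → TG T × Bool := fun a => cond a.2 (τ (a.1 * P)⁻¹, true) (a.1⁻¹, false)
  have lt : ∀ a : TG T, a.v < l.h := fun a => hn ▸ a.lt
  have eM : ∀ a b, (ext T l).mu (E a) (E b) = E (M a b) := by
    rintro ⟨a, _ | _⟩ ⟨b, _ | _⟩
    · exact s00 (lt a) (lt b)
    · exact s01 (lt a)
    · exact s10 (lt b)
    · exact s11 (congrArg TG.v (mul_one (a * τ b)))
  have eI : ∀ a, (ext T l).iv (E a) = E (I a) := by
    rintro ⟨a, _ | _⟩
    · exact i0 (lt a)
    · exact i1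
  have eL : ∀ a, E a < (ext T l).n := by
    rintro ⟨a, _ | _⟩ <;> have := lt a <;> have := S.n <;> simp only [E, ext, cond] <;> omega
  have eS : ∀ u < (ext T l).n, ∃ a, u = E a := fun u hu => by
    have := S.n
    simp only [ext] at hu
    rcases lt_or_ge u l.h with h | h
    · exact ⟨(⟨u, hn ▸ h⟩, false), rfl⟩
    · exact ⟨(⟨u - l.h, by omega⟩, true), by simp only [E, cond]; omega⟩
  have e0 : 0 = E (1, false) := rfl
  refine ⟨⟨lt_of_le_of_lt (Nat.zero_le _) (eL (1, false)), fun u hu v hv => ?_, fun u hu => ?_,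
    fun u hu v hv w hw => ?_, fun u hu => ?_, fun u hu => ?_⟩, ?_, fun i hi v hv => ?_⟩
  · obtain ⟨a, rfl⟩ := eS u hu; obtain ⟨b, rfl⟩ := eS v hv; rw [eM]; exact eL _
  · obtain ⟨a, rfl⟩ := eS u hu; rw [eI]; exact eL _
  · obtain ⟨a, rfl⟩ := eS u hu; obtain ⟨b, rfl⟩ := eS v hv; obtain ⟨c, rfl⟩ := eS w hw
    rw [eM, eM, eM, eM]
    congr 1
    obtain ⟨a, _ | _⟩ := a <;> obtain ⟨b, _ | _⟩ := b <;> obtain ⟨c, _ | _⟩ := c <;>
      simp only [M, cond, tm, tp, mul_assoc, ts]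
  · obtain ⟨a, rfl⟩ := eS u hu; rw [e0, eM]; simp [M]
  · obtain ⟨a, rfl⟩ := eS u hu
    rw [eI, eM, e0]
    congr 1
    obtain ⟨a, _ | _⟩ := a
    · simp [M, I]
    · simp only [M, I, cond, Prod.mk.injEq, and_true]
      rw [← tm, ← tp, ← tm, tp]
      have : (a * P)⁻¹ * a * P = 1 := by group
      rw [this, t1]
  · have := S.n; have := S.h; simp only [ext]; omega
  · rcases Nat.lt_succ_iff_lt_or_eq.1 hi with hi | rfl
    · have a := hi2 i hi
      exact (s00 (by omega) (by omega)).trans (H.gen i hi v hv)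
    · have a : v < T.n := H.n ▸ hv
      have := eM (⟨v, a⟩, false) (1, true)
      simp only [E, M, cond, mul_one] at this
      rw [← S.h]
      exact this

theorem good {L : List Lv} (h : chk L = true) : Good (tab L) (len L) := by
  induction L with
  | nil => exact ⟨⟨one_pos, fun _ _ _ _ => one_pos, fun _ _ => one_pos, fun _ _ _ _ _ _ => rfl,
      fun a ha => by change a < 1 at ha; change 0 = a; omega, fun _ _ => rfl⟩, rfl,
      fun i hi => absurd hi (Nat.not_lt_zero _)⟩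
  | cons l L ih =>
    have := (and'_eq_true _ _).1 h
    exact (ih this.1).step (spec_of this.2)

theorem ok {L : List Lv} (h : chk L = true) : (tab L).OK := (good h).ok

variable {G : Type*} [Group G]

/-- letters `k < 16` are generators, `16 + k` their inverses -/
def lt (x : ℕ → G) (k : ℕ) : G := if k < 16 then x k else (x (k - 16))⁻¹

def ev (x : ℕ → G) : List ℕ → G
  | [] => 1
  | [k] => lt x k
  | k :: W => lt x k * ev x W

theorem ev_cons (x : ℕ → G) (k : ℕ) (W : List ℕ) : ev x (k :: W) = lt x k * ev x W := by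
  cases W <;> simp [ev]

noncomputable def wv (T : Tab) (W : List ℕ) : ℕ :=
  List.rec (motive := fun _ => ℕ) 0 (fun k _ ih =>
    T.mu (ite' (Nat.blt k 16) (Nat.pow 2 k) (T.iv (Nat.pow 2 (Nat.sub k 16)))) ih) W

noncomputable def wok (j : ℕ) (W : List ℕ) : Bool :=
  allL W fun k => ite' (Nat.blt k 16) (Nat.blt k j) (Nat.blt (Nat.sub k 16) j)

noncomputable def cov (T : Tab) (R : List (ℕ × ℕ × List ℕ)) (j i c : ℕ) : Bool :=
  anyL R fun r => and' (and' (Nat.beq r.1 j) (Nat.beq r.2.1 i))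
    (and' (wok j r.2.2) (Nat.beq (wv T r.2.2) c))

noncomputable def chkR (R : List (ℕ × ℕ × List ℕ)) (L : List Lv) : Bool :=
  List.rec (motive := fun _ => Bool) true (fun l L b => and' b (and' (cov (tab L) R l.j l.j l.p)
    (allLT l.j fun i => cov (tab L) R l.j i (lk l.C (Nat.pow 2 i))))) L

/-- `(j, j, W)` is the relation `x_j² = W`, `(j, i, W)` is `x_j x_i x_j⁻¹ = W` -/
def rel (x : ℕ → G) (r : ℕ × ℕ × List ℕ) : Prop :=
  if r.2.1 = r.1 then x r.1 * x r.1 = ev x r.2.2 else Cj (x r.1) (x r.2.1) (ev x r.2.2)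

structure Snd (x : ℕ → G) (T : Tab) (j : ℕ) (f : ℕ → G) : Prop where
  mul : ∀ u < T.n, ∀ v < T.n, f (T.mu u v) = f u * f v
  gen : ∀ i < j, f (2 ^ i) = x i

def Snd.hom {x : ℕ → G} {T : Tab} [Fact T.OK] {j : ℕ} {f : ℕ → G} (H : Snd x T j f) : TG T →* G :=
  MonoidHom.mk' (fun k => f k.v) fun a b => H.mul _ a.lt _ b.lt

theorem Snd.wv {x : ℕ → G} {T : Tab} {j : ℕ} {f : ℕ → G} (g : Good T j) (H : Snd x T j f)
    {W : List ℕ} (h : wok j W = true) : wv T W < T.n ∧ f (wv T W) = ev x W := by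
  have : Fact T.OK := ⟨g.ok⟩
  have hi2 : ∀ i < j, 2 ^ i < T.n := fun i hi => g.n ▸ Nat.pow_lt_pow_right one_lt_two hi
  simp only [wok, allL_iff] at h
  induction W with
  | nil => exact ⟨g.ok.pos, map_one H.hom⟩
  | cons k W ih =>
    obtain ⟨a, b⟩ := ih fun k hk => h k (List.mem_cons_of_mem _ hk)
    have c := h k List.mem_cons_self
    have key : ∀ s < T.n, f s = lt x k → T.mu s (Pc.wv T W) < T.n ∧
        f (T.mu s (Pc.wv T W)) = ev x (k :: W) := fun s hs e =>
      ⟨g.ok.lt _ hs _ a, by rw [H.mul _ hs _ a, e, b, ev_cons]⟩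
    refine key _ ?_ ?_ <;> rw [ite'_eq] at c ⊢ <;> split_ifs at c ⊢ with c0 <;>
      rw [blt_iff] at c c0
    · exact hi2 _ c
    · exact g.ok.ivlt _ (hi2 _ c)
    · rw [lt, if_pos c0]; exact H.gen _ c
    · rw [lt, if_neg c0]
      exact (map_inv H.hom ⟨_, hi2 _ c⟩).trans (congrArg (·⁻¹) (H.gen _ c))

theorem cov_spec {x : ℕ → G} {T : Tab} {j i c : ℕ} {f : ℕ → G} (g : Good T j) (H : Snd x T j f)
    {R : List (ℕ × ℕ × List ℕ)} (hR : ∀ r ∈ R, rel x r) (h : cov T R j i c = true) :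
    if i = j then x j * x j = f c else Cj (x j) (x i) (f c) := by
  simp only [cov, anyL_iff, and'_eq_true, beq_iff] at h
  obtain ⟨r, hr, ⟨rfl, rfl⟩, a, rfl⟩ := h
  rw [(H.wv g a).2]
  exact hR r hr

theorem exists_snd {x : ℕ → G} {R : List (ℕ × ℕ × List ℕ)} (hR : ∀ r ∈ R, rel x r) {L : List Lv}
    (h : chk L = true) (h' : chkR R L = true) : ∃ f, Snd x (tab L) (len L) f := by
  induction L with
  | nil => exact ⟨fun _ => 1, fun _ _ _ _ => by simp, fun i hi => absurd hi (Nat.not_lt_zero _)⟩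
  | cons l L ih =>
    have a := (and'_eq_true _ _).1 h
    have b := (and'_eq_true _ _).1 h'
    obtain ⟨f, H⟩ := ih a.1 b.1
    have g := good a.1
    have S := spec_of a.2
    have : Fact (tab L).OK := ⟨g.ok⟩
    have hn : (tab L).n = l.h := g.n.trans S.h.symm
    have c := b.2
    simp only [and'_eq_true, allLT_iff, S.ej] at c
    have e1 : x (len L) * x (len L) = f l.p := by simpa using cov_spec g H hR c.1
    have f0 : f 0 = 1 := map_one H.hom
    have e2 : ∀ u < 2 ^ len L, Cj (x (len L)) (f u) (f (lk l.C u)) := by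
      refine g.ind (by rw [S.c0, f0]; exact Cj.one _) fun i hi v hv q => ?_
      have hi2 : 2 ^ i < l.h := S.h ▸ Nat.pow_lt_pow_right one_lt_two hi
      have q2 := cov_spec g H hR (c.2 i hi)
      rw [if_neg hi.ne, ← H.gen i hi] at q2
      rw [S.hom i hi v (S.h ▸ hv), H.mul _ (g.n ▸ hv) _ (hn ▸ hi2),
        H.mul _ (hn ▸ S.lt _ (S.h ▸ hv)) _ (hn ▸ S.lt _ hi2)]
      exact q.mul q2
    have e3 : ∀ u < l.h, x (len L) * f u = f (lk l.C u) * x (len L) := fun u hu => by
      rw [← (e2 u (S.h ▸ hu) : _ = _)]; group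
    let f' : ℕ → G := fun u => if u < l.h then f u else f (u - l.h) * x (len L)
    have p0 : ∀ u < l.h, f' u = f u := fun u hu => if_pos hu
    have p1 : ∀ u, f' (l.h + u) = f u * x (len L) := fun u => by
      simp only [f', if_neg (show ¬ l.h + u < l.h by omega), Nat.add_sub_cancel_left]
    have cs : ∀ u < (tab (l :: L)).n, u < l.h ∨ ∃ v < l.h, u = l.h + v := fun u hu => by
      have := S.n
      change u < l.n at hu
      exact (lt_or_ge u l.h).imp_right fun h => ⟨u - l.h, by omega, by omega⟩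
    have ml : ∀ u < l.h, ∀ v < l.h, (tab L).mu u v < l.h := fun u hu v hv =>
      hn ▸ g.ok.lt _ (hn ▸ hu) _ (hn ▸ hv)
    have mm : ∀ u < l.h, ∀ v < l.h, f ((tab L).mu u v) = f u * f v := fun u hu v hv =>
      H.mul _ (hn ▸ hu) _ (hn ▸ hv)
    refine ⟨f', fun u hu' v hv' => ?_, fun i hi => ?_⟩
    · change f' (stp l.h l.p l.C (tab L).mu u v) = _
      rcases cs u hu' with hu | ⟨u, hu, rfl⟩ <;> rcases cs v hv' with hv | ⟨v, hv, rfl⟩
      · rw [s00 hu hv, p0 _ (ml _ hu _ hv), p0 _ hu, p0 _ hv, mm _ hu _ hv]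
      · rw [s01 hu, p1, p1, p0 _ hu, mm _ hu _ hv, mul_assoc]
      · rw [s10 hv, p1, p1, p0 _ hv, mm _ hu _ (S.lt _ hv), mul_assoc, mul_assoc, e3 _ hv]
      · have q := ml _ hu _ (S.lt _ hv)
        rw [s11 (congrArg TG.v (mul_one (⟨_, hn ▸ q⟩ : TG (tab L)))), p0 _ (ml _ q _ S.p), p1, p1,
          mm _ q _ S.p, mm _ hu _ (S.lt _ hv), ← e1, mul_assoc (f u) (x _), ← mul_assoc (x _) (f v),
          e3 _ hv]
        simp only [mul_assoc]
    · rcases Nat.lt_succ_iff_lt_or_eq.1 hi with hi | rfl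
      · rw [p0 _ (S.h ▸ Nat.pow_lt_pow_right one_lt_two hi), H.gen i hi]
      · have := p1 0
        rwa [S.h, f0, one_mul] at this

/-- the generator `x_i` of the table group -/
def gn {T : Tab} [Fact T.OK] (i : ℕ) : TG T := TG.e (2 ^ i)

/-- the homomorphism from the table group -/
theorem exists_hom {x : ℕ → G} {R : List (ℕ × ℕ × List ℕ)} (hR : ∀ r ∈ R, rel x r) {L : List Lv}
    [Fact (tab L).OK] (h : chk L = true) (h' : chkR R L = true) :
    ∃ φ : TG (tab L) →* G, ∀ i < len L, φ (gn i) = x i := by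
  obtain ⟨f, H⟩ := exists_snd hR h h'
  refine ⟨H.hom, fun i hi => ?_⟩
  have : 2 ^ i < (tab L).n := (good h).n ▸ Nat.pow_lt_pow_right one_lt_two hi
  exact (congrArg f (Nat.mod_eq_of_lt this)).trans (H.gen i hi)

section TG
variable {T : Tab} [Fact T.OK]

instance evE (n : ℕ) : TG.EV (TG.e n : TG T) (Nat.mod n T.n) := ⟨rfl⟩
instance evGn (n : ℕ) : TG.EV (gn n : TG T) (Nat.mod (Nat.pow 2 n) T.n) := ⟨rfl⟩

/-- the element stored for `k` in the table `C` -/
noncomputable def lkE (C : ℕ) (k : TG T) : TG T := TG.e (lk C k.v)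
instance evLk (C : ℕ) (k : TG T) {m : ℕ} [TG.EV k m] : TG.EV (lkE C k) (Nat.mod (lk C m) T.n) :=
  ⟨by rw [← TG.EV.h (a := k)]; rfl⟩

instance instCj (g x y : TG T) {a b c : ℕ} [TG.EV g a] [TG.EV x b] [TG.EV y c] :
    BD (Cj g x y) (force a fun a => Nat.beq (T.mu (T.mu a b) (T.iv a)) c) :=
  ⟨by rw [force_eq]; exact (TG.instEq (g * x * g⁻¹) y).h⟩

/-- the bits of `k` under the mask `m` vanish -/
def Msk (m : ℕ) (k : TG T) : Prop := Nat.land k.v m = 0
instance instMsk (m : ℕ) (k : TG T) {a : ℕ} [TG.EV k a] : BD (Msk m k) (Nat.beq (Nat.land a m) 0) :=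
  ⟨by rw [← TG.EV.h (a := k), beq_iff]; rfl⟩

/-- the number of bits of `k` under the mask `m` is even -/
def Evn (m : ℕ) (k : TG T) : Prop := Nat.land (pop 16 (Nat.land k.v m)) 1 = 0
instance instEvn (m : ℕ) (k : TG T) {a : ℕ} [TG.EV k a] :
    BD (Evn m k) (force (Nat.land a m) fun b => Nat.beq (Nat.land (pop 16 b) 1) 0) :=
  ⟨by rw [← TG.EV.h (a := k), force_eq, beq_iff]; rfl⟩

/-- the entry of `k` in the table `C` is `c` -/
def Ent (C c : ℕ) (k : TG T) : Prop := lk C k.v = c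
instance instEnt (C c : ℕ) (k : TG T) {a : ℕ} [TG.EV k a] : BD (Ent C c k) (Nat.beq (lk C a) c) :=
  ⟨by rw [← TG.EV.h (a := k), beq_iff]; rfl⟩

/-- membership in the subgroup generated by a list -/
theorem mem_closure_iff (gs : List (TG T)) (p : TG T → Prop) (h1 : p 1)
    (h2 : ∀ k, p k → (∀ g ∈ gs, p (g * k)) ∧ (k = 1 ∨ ∃ g ∈ gs, (g * k).v < k.v)) (k : TG T) :
    k ∈ Subgroup.closure {g | g ∈ gs} ↔ p k := by
  constructor
  · intro hk
    have : k ∈ Submonoid.closure {g | g ∈ gs} := by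
      rw [← Subgroup.closure_toSubmonoid_of_finite]; exact hk
    clear hk
    induction this using Submonoid.closure_induction_left with
    | one => exact h1
    | mul_left g hg k _ ih => exact (h2 k ih).1 g hg
  · induction hk : k.v using Nat.strong_induction_on generalizing k with
    | _ n ih =>
      intro q
      rcases (h2 k q).2 with rfl | ⟨g, hg, h⟩
      · exact one_mem _
      · exact (Subgroup.mul_mem_cancel_left _
          (Subgroup.subset_closure (k := {g | g ∈ gs}) hg)).1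
          (ih _ (hk ▸ h) _ rfl ((h2 k q).1 g hg))

/-- a function which is multiplicative on generators -/
theorem exists_chi {A : Type*} [Group A] (gs : List (TG T)) (c : TG T → A) (h1 : c 1 = 1)
    (hg : ∀ k : TG T, k = 1 ∨ ∃ g ∈ gs, (g * k).v < k.v)
    (h : ∀ g ∈ gs, ∀ k, c (g * k) = c g * c k) : ∃ χ : TG T →* A, ∀ k, χ k = c k := by
  refine ⟨MonoidHom.mk' c fun a b => ?_, fun _ => rfl⟩
  have : a ∈ Submonoid.closure {g | g ∈ gs} := by
    rw [← Subgroup.closure_toSubmonoid_of_finite,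
      TG.top_of_rank (H := Subgroup.closure {g | g ∈ gs}) gs
        (fun g h' => Subgroup.subset_closure (k := {g | g ∈ gs}) h') hg]
    trivial
  induction this using Submonoid.closure_induction_left with
  | one => simp [h1]
  | mul_left g hg k _ ih => rw [mul_assoc, h g hg, ih, h g hg, mul_assoc]

end TG

variable {L : List Lv} [Fact (tab L).OK]

theorem card (h : chk L = true) : Nat.card (TG (tab L)) = 2 ^ len L := TG.card.trans (good h).n

theorem pgrp (h : chk L = true) : IsPGroup 2 (TG (tab L)) := IsPGroup.of_card (card h)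

theorem gn_ind (h : chk L = true) {q : TG (tab L) → Prop} (q0 : q 1)
    (q1 : ∀ i < len L, ∀ v, q v → q (v * gn i)) (k : TG (tab L)) : q k := by
  have H := good h
  refine H.ind (p := fun u => ∀ hu : u < (tab L).n, q ⟨u, hu⟩) (fun _ => q0)
    (fun i hi v hv a _ => ?_) k.v (H.n ▸ k.lt) k.lt
  have : 2 ^ i < (tab L).n := H.n ▸ Nat.pow_lt_pow_right one_lt_two hi
  have e : gn i = (⟨_, this⟩ : TG (tab L)) := TG.ext (Nat.mod_eq_of_lt this)
  have := q1 i hi ⟨v, H.n ▸ hv⟩ (a _)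
  rwa [e] at this

/-- the image lies in every subgroup containing the generators -/
theorem range_le (h : chk L = true) (φ : TG (tab L) →* G) {H : Subgroup G}
    (hH : ∀ i < len L, φ (gn i) ∈ H) : φ.range ≤ H := by
  rintro _ ⟨k, rfl⟩
  exact gn_ind h (q := fun k => φ k ∈ H) (by simp) (fun i hi v a => by
    rw [map_mul]; exact mul_mem a (hH i hi)) k

/-- injectivity from the central involutions -/
theorem inj (h : chk L = true) (φ : TG (tab L) →* G) (gs zs : List (TG (tab L)))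
    (h1 : ∀ k : TG (tab L), (∀ g ∈ gs, k * g = g * k) → k * k = 1 → k = 1 ∨ k ∈ zs)
    (h2 : ∀ z ∈ zs, φ z ≠ 1) : Function.Injective φ := by
  rw [← MonoidHom.ker_eq_bot_iff]
  by_contra hne
  have : Fact (Nat.Prime 2) := ⟨Nat.prime_two⟩
  have : Nontrivial φ.ker := (Subgroup.nontrivial_iff_ne_bot _).2 hne
  have hp := pgrp h
  obtain ⟨k, hk⟩ : ∃ k : φ.ker, k ≠ 1 ∧ ∀ g : TG (tab L), g * k * g⁻¹ = k := by
    let _ : MulAction (TG (tab L)) φ.ker := MulAction.compHom φ.ker (MulAut.conjNormal (H := φ.ker))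
    have d : 2 ∣ Nat.card φ.ker := by
      obtain ⟨n, hn, e⟩ := (hp.to_subgroup φ.ker).nontrivial_iff_card.1 inferInstance
      exact e ▸ dvd_pow_self 2 hn.ne'
    obtain ⟨k, hk, hk'⟩ := hp.exists_fixed_point_of_prime_dvd_card_of_fixed_point φ.ker d
      (a := 1) (fun g => map_one (MulAut.conjNormal g))
    exact ⟨k, hk'.symm, fun g => congrArg Subtype.val (hk g)⟩
  obtain ⟨n, hn⟩ := (IsPGroup.iff_orderOf.1 hp) (k : TG (tab L))
  have n0 : n ≠ 0 := by
    rintro rfl
    exact hk.1 (Subtype.ext (orderOf_eq_one_iff.1 hn))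
  obtain ⟨n, rfl⟩ := Nat.exists_eq_succ_of_ne_zero n0
  rcases h1 ((k : TG (tab L)) ^ 2 ^ n) (fun g _ => by
    have : Commute (k : TG (tab L)) g := by
      have := hk.2 g
      rw [mul_inv_eq_iff_eq_mul] at this
      exact this.symm
    exact (this.pow_left _).eq) (by rw [← pow_add, ← two_mul, ← pow_succ', ← hn, pow_orderOf_eq_one])
    with e | e
  · have := orderOf_dvd_of_pow_eq_one e
    rw [hn] at this
    exact absurd (Nat.le_of_dvd (by positivity) this) (not_le.2 (Nat.pow_lt_pow_right one_lt_two (by omega)))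
  · exact h2 _ e (by rw [map_pow, (MonoidHom.mem_ker).1 k.2, one_pow])

end Pc

end Cfsg.Agent.HSE
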